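import Mathlib
import Cfsg.Prelude.Def_GeometricClasses
import Cfsg.Agent.H371.AlgLemma

/-!
# S3499: lower bounds for the dimension from one element of prime order (helper948)

`x ^ s = 1`, `x ≠ 1`, `s` a prime, `s ≠ 0` in the field `F` with `q` elements, `x ∈ GL_n(F)`.
* `ord_le` : `n` is at least the order of `q` modulo `s`;
* `ord_le_bil` : if `x` preserves a nondegenerate bilinear form, `n` is at least the order of `-q` modulo `s`;
* `ord_le_uni` : if `x` preserves a nondegenerate unitary form, `q = q₀ ^ 2`, `n` is at least the order of `-q₀` modulo `s`.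
-/

set_option autoImplicit false
set_option linter.unusedSectionVars false

namespace Cfsg.Agent.H948.EP

open Polynomial Matrix Cfsg Cfsg.Geo

section alg

variable {F : Type*} [Field F] {R : Type*} [Ring R] [Algebra F R] [Nontrivial R]

/-- an eigenvalue of order `s` -/
theorem exists_root {x : R} {s : ℕ} (hs : s.Prime) (hsF : (s : F) ≠ 0) (h1 : x ^ s = 1) (hne : x ≠ 1) :
    ∃ ζ : AlgebraicClosure F, IsPrimitiveRoot ζ s ∧ ∀ r : F[X], aeval x r = 0 → aeval ζ r = 0 := by
  classical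
  have hint : IsIntegral F x := by
    refine ⟨X ^ s - 1, monic_X_pow_sub_C 1 hs.ne_zero, ?_⟩
    rw [← aeval_def]
    simp [h1]
  have hdvd : minpoly F x ∣ X ^ s - 1 := minpoly.dvd F x (by simp [h1])
  have hfac : (X ^ s - 1 : F[X]) = (∑ i ∈ Finset.range s, X ^ i) * (X - 1) := (geom_sum_mul X s).symm
  have hsA : (s : AlgebraicClosure F) ≠ 0 := by
    intro h
    apply hsF
    apply (algebraMap F (AlgebraicClosure F)).injective
    rw [map_natCast, map_zero, h]
  by_contra hcon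
  push Not at hcon
  -- every root of the minimal polynomial is `1`
  have hroot : ∀ ζ : AlgebraicClosure F, aeval ζ (minpoly F x) = 0 → ζ = 1 := by
    intro ζ hζ
    by_contra hζ1
    have h2 : ζ ^ s = 1 := by
      obtain ⟨c, hc⟩ := hdvd
      have h3 := congrArg (aeval ζ) hc
      rw [map_mul, hζ, zero_mul] at h3
      simp only [map_sub, map_pow, aeval_X, map_one] at h3
      exact sub_eq_zero.1 h3
    have hFs : Fact s.Prime := ⟨hs⟩
    have h3 : IsPrimitiveRoot ζ s := by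
      have h4 := orderOf_eq_prime h2 hζ1
      rw [← h4]
      exact IsPrimitiveRoot.orderOf ζ
    obtain ⟨r, hr, hr2⟩ := hcon ζ h3
    apply hr2
    obtain ⟨c, hc⟩ := minpoly.dvd F x hr
    rw [hc, map_mul, hζ, zero_mul]
  have hcop : IsCoprime (minpoly F x) (∑ i ∈ Finset.range s, X ^ i) := by
    rw [← Polynomial.isCoprime_map (algebraMap F (AlgebraicClosure F))]
    by_contra hnc
    obtain ⟨ζ, hz1, hz2⟩ : ∃ ζ : AlgebraicClosure F, aeval ζ (minpoly F x) = 0 ∧
        aeval ζ (∑ i ∈ Finset.range s, X ^ i : F[X]) = 0 := by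
      have hg : ¬ IsUnit (EuclideanDomain.gcd ((minpoly F x).map (algebraMap F (AlgebraicClosure F)))
          ((∑ i ∈ Finset.range s, X ^ i : F[X]).map (algebraMap F (AlgebraicClosure F)))) := fun hu =>
        hnc ((EuclideanDomain.gcd_isUnit_iff).1 hu)
      have hd : (EuclideanDomain.gcd ((minpoly F x).map (algebraMap F (AlgebraicClosure F)))
          ((∑ i ∈ Finset.range s, X ^ i : F[X]).map (algebraMap F (AlgebraicClosure F)))).degree ≠ 0 := by
        intro h0
        apply hg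
        rw [Polynomial.isUnit_iff_degree_eq_zero]
        exact h0
      obtain ⟨ζ, hζ⟩ := IsAlgClosed.exists_root _ hd
      refine ⟨ζ, ?_, ?_⟩
      · rw [aeval_def, ← eval_map]
        exact eval_eq_zero_of_dvd_of_eval_eq_zero (EuclideanDomain.gcd_dvd_left _ _) hζ
      · rw [aeval_def, ← eval_map]
        exact eval_eq_zero_of_dvd_of_eval_eq_zero (EuclideanDomain.gcd_dvd_right _ _) hζ
    have h3 := hroot ζ hz1
    rw [h3] at hz2
    simp at hz2
    exact hsA hz2
  have h2 : minpoly F x ∣ X - 1 := by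
    rw [hfac] at hdvd
    exact hcop.dvd_of_dvd_mul_left hdvd
  apply hne
  obtain ⟨c, hc⟩ := h2
  have h3 := congrArg (aeval x) hc
  rw [map_mul, minpoly.aeval, zero_mul] at h3
  simp only [map_sub, aeval_X, map_one] at h3
  exact sub_eq_zero.1 h3

/-- `u` is a multiplier of `x`: every polynomial killing `x` kills `x ^ u` -/
def Mul' (F : Type*) [Field F] {R : Type*} [Ring R] [Algebra F R] (x : R) (u : ℕ) : Prop :=
  ∀ r : F[X], aeval x r = 0 → aeval (x ^ u) r = 0

omit [Nontrivial R] in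
theorem aeval_pow' (x : R) (u : ℕ) (r : F[X]) : aeval (x ^ u) r = aeval x (expand F u r) := by
  rw [expand_aeval]

omit [Nontrivial R] in
theorem Mul'.mul {x : R} {u v : ℕ} (hu : Mul' F x u) (hv : Mul' F x v) : Mul' F x (u * v) := by
  intro r hr
  rw [pow_mul, aeval_pow' (x ^ u)]
  have h1 : aeval x (expand F v r) = 0 := by
    rw [← aeval_pow']
    exact hv r hr
  exact hu _ h1

omit [Nontrivial R] in
theorem Mul'.one (x : R) : Mul' F x 1 := fun r hr => by rwa [pow_one]

omit [Nontrivial R] in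
theorem Mul'.pow {x : R} {u : ℕ} (hu : Mul' F x u) (i : ℕ) : Mul' F x (u ^ i) := by
  induction i with
  | zero => rw [pow_zero]; exact Mul'.one x
  | succ i ih => rw [pow_succ]; exact ih.mul hu

/-- **The bound.** -/
theorem orderOf_le {x : R} {s : ℕ} (hs : s.Prime) (hsF : (s : F) ≠ 0) (h1 : x ^ s = 1) (hne : x ≠ 1) {u : ℕ}
    (hu : Mul' F x u) {r : F[X]} (hr0 : r ≠ 0) (hr : aeval x r = 0) : orderOf (u : ZMod s) ≤ r.natDegree := by
  classical
  obtain ⟨ζ, hζ, hζr⟩ := exists_root hs hsF h1 hne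
  have hFs : Fact s.Prime := ⟨hs⟩
  have hmem : ∀ i : ℕ, ζ ^ (u ^ i) ∈ r.rootSet (AlgebraicClosure F) := by
    intro i
    rw [mem_rootSet]
    refine ⟨hr0, ?_⟩
    rw [← expand_aeval]
    apply hζr
    rw [expand_aeval]
    exact hu.pow i r hr
  have hinj : Set.InjOn (fun i : ℕ => ζ ^ (u ^ i)) (Finset.range (orderOf (u : ZMod s))) := by
    intro i hi j hj hij
    rw [Finset.coe_range, Set.mem_Iio] at hi hj
    have h2 : ζ ^ (u ^ i) = ζ ^ (u ^ j) := hij
    have h3 : (u : ZMod s) ^ i = (u : ZMod s) ^ j := by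
      rw [← Nat.cast_pow, ← Nat.cast_pow, ZMod.natCast_eq_natCast_iff, Nat.ModEq]
      have hm : ∀ k : ℕ, ζ ^ k = ζ ^ (k % s) := by
        intro k
        conv_lhs => rw [← Nat.div_add_mod k s, pow_add, pow_mul, hζ.pow_eq_one, one_pow, one_mul]
      rw [hm (u ^ i), hm (u ^ j)] at h2
      exact hζ.pow_inj (Nat.mod_lt _ hs.pos) (Nat.mod_lt _ hs.pos) h2
    exact pow_injOn_Iio_orderOf hi hj h3
  have hcard : ((Finset.range (orderOf (u : ZMod s))).image fun i => ζ ^ (u ^ i)).card = orderOf (u : ZMod s) := by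
    rw [Finset.card_image_of_injOn hinj, Finset.card_range]
  rw [← hcard]
  have hsub : ((Finset.range (orderOf (u : ZMod s))).image fun i => ζ ^ (u ^ i)) ⊆
      (r.map (algebraMap F (AlgebraicClosure F))).roots.toFinset := by
    intro y hy
    rw [Finset.mem_image] at hy
    obtain ⟨i, -, rfl⟩ := hy
    have h6 := hmem i
    rw [mem_rootSet] at h6
    rw [Multiset.mem_toFinset, mem_roots (Polynomial.map_ne_zero h6.1), IsRoot.def, eval_map, ← aeval_def]
    exact h6.2
  refine (Finset.card_le_card hsub).trans ((Multiset.toFinset_card_le _).trans ?_)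
  refine (card_roots' _).trans ?_
  rw [natDegree_map]

variable [Fintype F]

omit [Nontrivial R] in
/-- `q` is a multiplier -/
theorem mul_card (x : R) : Mul' F x (Fintype.card F) := by
  intro r hr
  rw [aeval_pow', FiniteField.expand_card, map_pow, hr, zero_pow Fintype.card_ne_zero]

end alg

section mat

variable {ι : Type} [Fintype ι] [DecidableEq ι] {F : Type*} [Field F] [Fintype F]

theorem le_of_mul {x : Matrix ι ι F} {s : ℕ} (hs : s.Prime) (hsF : (s : F) ≠ 0) (h1 : x ^ s = 1) (hne : x ≠ 1) {u : ℕ}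
    (hu : Mul' F x u) : orderOf (u : ZMod s) ≤ Fintype.card ι := by
  have : Nontrivial (Matrix ι ι F) := nontrivial_of_ne _ _ hne
  have h2 := orderOf_le hs hsF h1 hne hu (r := x.charpoly) (Matrix.charpoly_monic x).ne_zero (Matrix.aeval_self_charpoly x)
  rwa [Matrix.charpoly_natDegree_eq_dim] at h2

/-- **`n ≥ ord_s(q)`** -/
theorem ord_le {x : Matrix ι ι F} {s : ℕ} (hs : s.Prime) (hsF : (s : F) ≠ 0) (h1 : x ^ s = 1) (hne : x ≠ 1) :
    orderOf ((Fintype.card F : ℕ) : ZMod s) ≤ Fintype.card ι :=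
  le_of_mul hs hsF h1 hne (mul_card x)

/-! ### forms -/

theorem fix_pow {f : (ι → F) → (ι → F) → F} {x : Matrix ι ι F} (hx : ∀ u v, f (x *ᵥ u) (x *ᵥ v) = f u v) (k : ℕ) (u v : ι → F) :
    f ((x ^ k) *ᵥ u) ((x ^ k) *ᵥ v) = f u v := by
  induction k generalizing u v with
  | zero => rw [pow_zero, Matrix.one_mulVec, Matrix.one_mulVec]
  | succ k ih => rw [pow_succ, ← Matrix.mulVec_mulVec, ← Matrix.mulVec_mulVec, ih, hx]

theorem adj {f : (ι → F) → (ι → F) → F} {x : Matrix ι ι F} (hx : ∀ u v, f (x *ᵥ u) (x *ᵥ v) = f u v) {s : ℕ}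
    (hs0 : 0 < s) (h1 : x ^ s = 1) (u v : ι → F) : f ((x ^ (s - 1)) *ᵥ u) v = f u (x *ᵥ v) := by
  rw [← hx ((x ^ (s - 1)) *ᵥ u) v, Matrix.mulVec_mulVec, ← pow_succ', Nat.sub_add_cancel hs0, h1, Matrix.one_mulVec]

theorem adj_pow {f : (ι → F) → (ι → F) → F} {x : Matrix ι ι F} (hx : ∀ u v, f (x *ᵥ u) (x *ᵥ v) = f u v) {s : ℕ}
    (hs0 : 0 < s) (h1 : x ^ s = 1) (k : ℕ) (u v : ι → F) :
    f (((x ^ (s - 1)) ^ k) *ᵥ u) v = f u ((x ^ k) *ᵥ v) := by
  rw [← pow_mul, mul_comm, pow_mul]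
  have h2 : (x ^ k) ^ s = 1 := by rw [← pow_mul, mul_comm, pow_mul, h1, one_pow]
  exact adj (fix_pow hx k) hs0 h2 u v

/-- `f(r(x⁻¹) u, v) = f(u, r^σ(x) v)` -/
theorem adj_poly {f : (ι → F) → (ι → F) → F} (σ : F →+* F) (hal : ∀ x y v, f (x + y) v = f x v + f y v)
    (hsl : ∀ (c : F) (x v : ι → F), f (c • x) v = c * f x v)
    (har : ∀ v x y, f v (x + y) = f v x + f v y) (hsr : ∀ (c : F) (v x : ι → F), f v (σ c • x) = c * f v x)
    {x : Matrix ι ι F} (hx : ∀ u v, f (x *ᵥ u) (x *ᵥ v) = f u v) {s : ℕ} (hs0 : 0 < s) (h1 : x ^ s = 1) (r : F[X])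
    (u v : ι → F) : f ((aeval (x ^ (s - 1)) r) *ᵥ u) v = f u ((aeval x (r.map σ)) *ᵥ v) := by
  induction r using Polynomial.induction_on' with
  | add p q hp hq => rw [map_add, Polynomial.map_add, map_add, Matrix.add_mulVec, Matrix.add_mulVec, hal, har, hp, hq]
  | monomial k a =>
    rw [Polynomial.map_monomial, aeval_monomial, aeval_monomial, ← Algebra.smul_def, ← Algebra.smul_def,
      Matrix.smul_mulVec, Matrix.smul_mulVec, hsl, hsr, adj_pow hx hs0 h1]

theorem eq_zero_of {f : (ι → F) → (ι → F) → F} (hal : ∀ x y v, f (x + y) v = f x v + f y v)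
    (hnd : IsNondegenerateForm f) {M : Matrix ι ι F} (h : ∀ u v, f (M *ᵥ u) v = 0) : M = 0 := by
  have h1 : ∀ u, M *ᵥ u = 0 := by
    intro u
    by_contra hu
    obtain ⟨-, v, hv⟩ := hnd _ hu
    exact hv (h u v)
  ext i j
  have h2 := congrFun (h1 (Pi.single j 1)) i
  rwa [Matrix.mulVec_single_one] at h2

theorem zero_right {f : (ι → F) → (ι → F) → F} (har : ∀ v x y, f v (x + y) = f v x + f v y) (v : ι → F) : f v 0 = 0 := by
  have := har v 0 0
  rw [add_zero] at this
  exact left_eq_add.1 this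

/-- `-1` is a multiplier -/
theorem mul_neg_one {f : (ι → F) → (ι → F) → F} (hf : IsBilinearForm f) (hnd : IsNondegenerateForm f)
    {x : Matrix ι ι F} (hx : ∀ u v, f (x *ᵥ u) (x *ᵥ v) = f u v) {s : ℕ} (hs0 : 0 < s) (h1 : x ^ s = 1) :
    Mul' F x (s - 1) := by
  intro r hr
  refine eq_zero_of hf.add_left hnd fun u v => ?_
  rw [adj_poly (RingHom.id F) hf.add_left hf.smul_left hf.add_right (fun c v x => hf.smul_right c v x) hx hs0 h1,
    Polynomial.map_id, hr, Matrix.zero_mulVec, zero_right hf.add_right]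

/-- `-q₀` is a multiplier -/
theorem mul_neg_q {q : ℕ} (hq : Fintype.card F = q ^ 2) {σ : F ≃+* F} {f : (ι → F) → (ι → F) → F} (hf : IsUnitaryForm σ f)
    {x : Matrix ι ι F} (hx : ∀ u v, f (x *ᵥ u) (x *ᵥ v) = f u v) {s : ℕ} (hs0 : 0 < s) (h1 : x ^ s = 1) :
    Mul' F x (q * (s - 1)) := by
  have hσ : ∀ a, σ a = a ^ q := by
    refine H371.Alg.eq_pow_of_involutive (σ : F →+* F) hf.involutive ?_ (by rw [Nat.card_eq_fintype_card, hq, pow_two])
    by_contra hcon
    push Not at hcon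
    exact hf.ne_refl (RingEquiv.ext hcon)
  have har : ∀ v x y, f v (x + y) = f v x + f v y := by
    intro v x y
    rw [hf.herm, hf.add_left, map_add, ← hf.herm, ← hf.herm]
  have hsr : ∀ (c : F) (v x : ι → F), f v (σ c • x) = c * f v x := by
    intro c v x
    rw [hf.herm, hf.smul_left, map_mul, hf.involutive, ← hf.herm]
  -- `q` is a power of the characteristic
  obtain ⟨p, hp⟩ := CharP.exists F
  obtain ⟨n, hpp, hn⟩ := FiniteField.card F p
  have hFp : Fact p.Prime := ⟨hpp⟩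
  obtain ⟨k, -, hk⟩ := (Nat.dvd_prime_pow hpp).1 (show q ∣ p ^ (n : ℕ) by rw [← hn, hq]; exact dvd_pow_self q two_ne_zero)
  intro r hr
  rw [pow_mul]
  have h2 : (x ^ q) ^ s = 1 := by rw [← pow_mul, mul_comm, pow_mul, h1, one_pow]
  refine eq_zero_of hf.add_left hf.nondegenerate fun u v => ?_
  rw [adj_poly (σ : F →+* F) hf.add_left hf.smul_left har hsr (fix_pow hx q) hs0 h2]
  have h3 : aeval (x ^ q) (r.map (σ : F →+* F)) = 0 := by
    rw [aeval_pow']
    have h4 : expand F q (r.map (σ : F →+* F)) = r ^ q := by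
      rw [← Polynomial.map_expand]
      have h5 : (σ : F →+* F) = iterateFrobenius F p k := by
        ext a
        rw [iterateFrobenius_def, ← hk]
        exact hσ a
      rw [h5, hk, Polynomial.map_iterateFrobenius_expand]
    rw [h4, map_pow, hr, zero_pow]
    rintro rfl
    have := Fintype.card_pos (α := F)
    rw [hq] at this
    simp at this
  rw [h3, Matrix.zero_mulVec, zero_right har]

/-- **`n ≥ ord_s(-q)`**, bilinear form -/
theorem ord_le_bil {f : (ι → F) → (ι → F) → F} (hf : IsBilinearForm f) (hnd : IsNondegenerateForm f)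
    {x : Matrix ι ι F} (hx : ∀ u v, f (x *ᵥ u) (x *ᵥ v) = f u v) {s : ℕ} (hs : s.Prime) (hsF : (s : F) ≠ 0)
    (h1 : x ^ s = 1) (hne : x ≠ 1) : orderOf (-((Fintype.card F : ℕ) : ZMod s)) ≤ Fintype.card ι := by
  have h2 := le_of_mul hs hsF h1 hne ((mul_card x).mul (mul_neg_one hf hnd hx hs.pos h1))
  rwa [Nat.cast_mul, Nat.cast_sub hs.one_lt.le, Nat.cast_one, ZMod.natCast_self, zero_sub, mul_neg, mul_one] at h2

/-- **`n ≥ ord_s(-q₀)`**, unitary form -/
theorem ord_le_uni {q : ℕ} (hq : Fintype.card F = q ^ 2) {σ : F ≃+* F} {f : (ι → F) → (ι → F) → F} (hf : IsUnitaryForm σ f)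
    {x : Matrix ι ι F} (hx : ∀ u v, f (x *ᵥ u) (x *ᵥ v) = f u v) {s : ℕ} (hs : s.Prime) (hsF : (s : F) ≠ 0)
    (h1 : x ^ s = 1) (hne : x ≠ 1) : orderOf (-(q : ZMod s)) ≤ Fintype.card ι := by
  have h2 := le_of_mul hs hsF h1 hne (mul_neg_q hq hf hx hs.pos h1)
  rwa [Nat.cast_mul, Nat.cast_sub hs.one_lt.le, Nat.cast_one, ZMod.natCast_self, zero_sub, mul_neg, mul_one] at h2

end mat

end Cfsg.Agent.H948.EP
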